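import Mathlib
import Cfsg.Agent.H520.CcpCfg
import Cfsg.Agent.SmallSimple.Burnside
import Cfsg.Agent.S0205

/-!
# Tools for the rows of S4114 (helper569)

* `exists_conj_pow` : an element of prime order `p` of a nonabelian simple group with cyclic Sylow `p`-subgroups is conjugate
  to a different power (Burnside);
* `Cfg.inner_false` : the resulting contradiction;
* `Cfg.two_dvd_fix` : `2 ∣ |C_G(α)|` if some `1 ≠ y ∈ ⟨α⟩` has a nonsolvable centraliser;
* `conj_of_coset` : two automorphisms of odd prime order `p` in the same coset of the inner automorphisms are conjugate if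
  the Sylow `p`-subgroups are cyclic and not centralised.
-/

set_option autoImplicit false
set_option linter.unusedSectionVars false

namespace Cfsg.Agent.H569.Ccp

open Subgroup Cfsg.Agent.H520

universe u

variable {G : Type u} [Group G]

/-- **Burnside.** -/
theorem exists_conj_pow [Finite G] [IsSimpleGroup G] (hna : ¬ ∀ a b : G, a * b = b * a) {p : ℕ} [hp : Fact p.Prime]
    (P : Sylow p G) (hP : IsCyclic ↥(P : Subgroup G)) {y : G} (hy : orderOf y = p) :
    ∃ (g : G) (j : ℤ), g * y * g⁻¹ = y ^ j ∧ y ^ j ≠ y := by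
  -- conjugate `y` into `P`
  have h1 : IsPGroup p ↥(zpowers y) := IsPGroup.of_card (n := 1) (by rw [Nat.card_zpowers, hy, pow_one])
  obtain ⟨Q, hQ⟩ := h1.exists_le_sylow
  obtain ⟨s, hs⟩ := MulAction.exists_smul_eq G Q P
  have hsy : s * y * s⁻¹ ∈ (P : Subgroup G) := by
    have : MulAut.conj s y ∈ (s • Q : Sylow p G) :=
      Subgroup.smul_mem_pointwise_smul y (MulAut.conj s) (Q : Subgroup G) (hQ (mem_zpowers y))
    rw [hs] at this
    exact this
  set z := s * y * s⁻¹ with hz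
  have hzo : orderOf z = p := by
    rw [← hy]
    exact orderOf_injective (MulAut.conj s).toMonoidHom (MulAut.conj s).injective y
  suffices h : ∃ (g : G) (j : ℤ), g * z * g⁻¹ = z ^ j ∧ z ^ j ≠ z by
    obtain ⟨g, j, h2, h3⟩ := h
    have e : ∀ j : ℤ, s⁻¹ * z ^ j * s = y ^ j := by
      intro j
      have h4 : z ^ j = s * y ^ j * s⁻¹ := by rw [hz, conj_zpow]
      rw [h4]; group
    refine ⟨s⁻¹ * g * s, j, ?_, ?_⟩
    · rw [← e j, ← h2, hz]; group
    · intro h4
      apply h3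
      have h5 : z ^ j = s * y ^ j * s⁻¹ := by rw [hz, conj_zpow]
      rw [h5, h4]
  -- Burnside
  obtain ⟨⟨c, hcP⟩, hc⟩ := hP.exists_generator
  have hmemc : ∀ x ∈ (P : Subgroup G), ∃ i : ℤ, c ^ i = x := by
    intro x hx
    obtain ⟨i, hi⟩ := mem_zpowers_iff.1 (hc ⟨x, hx⟩)
    exact ⟨i, congrArg Subtype.val hi⟩
  have hpd : p ∣ Nat.card G := by rw [← hy]; exact orderOf_dvd_natCard y
  by_contra hcon
  push Not at hcon
  have hNC : normalizer ((P : Subgroup G) : Set G) ≤ centralizer ((P : Subgroup G) : Set G) := by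
    intro n hn
    -- the index of the centraliser in the normaliser is prime to `p`
    set N := normalizer ((P : Subgroup G) : Set G) with hN
    set C := centralizer ((P : Subgroup G) : Set G) with hC
    have hPC : (P : Subgroup G) ≤ C := by
      intro x hx
      rw [hC, mem_centralizer_iff]
      intro w hw
      obtain ⟨i, rfl⟩ := hmemc x hx
      obtain ⟨j, rfl⟩ := hmemc w hw
      rw [← zpow_add, ← zpow_add, add_comm]
    have hPN : (P : Subgroup G) ≤ N := le_normalizer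
    have hCN : (C.subgroupOf N).Normal := by
      constructor
      intro x hx g
      rw [mem_subgroupOf] at hx ⊢
      rw [hC, mem_centralizer_iff] at hx ⊢
      intro w hw
      have h2 : (g : G)⁻¹ * w * (g : G) ∈ (P : Subgroup G) := (mem_normalizer_iff''.1 g.2 w).1 hw
      have h3 := hx _ h2
      show w * ((g : G) * x * (g : G)⁻¹) = (g : G) * x * (g : G)⁻¹ * w
      calc w * ((g : G) * x * (g : G)⁻¹) = (g : G) * ((g : G)⁻¹ * w * (g : G) * x) * (g : G)⁻¹ := by group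
        _ = (g : G) * (x * ((g : G)⁻¹ * w * (g : G))) * (g : G)⁻¹ := by rw [h3]
        _ = _ := by group
    have hidx : ¬ p ∣ (C.subgroupOf N).index := by
      intro h2
      have h3 : (C.subgroupOf N).index ∣ ((P : Subgroup G).subgroupOf N).index :=
        index_dvd_of_le (fun x hx => hPC hx)
      have h4 : ((P : Subgroup G).subgroupOf N).index ∣ (P : Subgroup G).index := relIndex_dvd_index_of_le hPN
      exact P.not_dvd_index ((h2.trans h3).trans h4)
    -- the action on `P`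
    obtain ⟨r, hr⟩ := hmemc (n * c * n⁻¹) ((mem_normalizer_iff.1 hn c).1 hcP)
    obtain ⟨i, hi⟩ := hmemc z hsy
    have hzr : n * z * n⁻¹ = z ^ r := by
      rw [← hi, ← conj_zpow, ← hr, ← zpow_mul, ← zpow_mul, mul_comm]
    have hzr' : z ^ r = z := by
      by_contra h2
      exact h2 (hcon n r hzr)
    have hpr : (p : ℤ) ∣ r - 1 := by
      have h2 : z ^ (r - 1) = 1 := by rw [zpow_sub_one, hzr', mul_inv_cancel]
      rw [← hzo]
      exact orderOf_dvd_iff_zpow_eq_one.2 h2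
    obtain ⟨k, hk⟩ := (IsPGroup.iff_orderOf.1 P.isPGroup') ⟨c, hcP⟩
    have hk' : orderOf c = p ^ k := by
      rw [← hk]
      exact orderOf_injective (P : Subgroup G).subtype (subtype_injective _) ⟨c, hcP⟩
    have hpow : ∀ j : ℕ, n ^ j * c * (n ^ j)⁻¹ = c ^ (r ^ j) := by
      intro j
      induction j with
      | zero => simp
      | succ j ih =>
        calc n ^ (j + 1) * c * (n ^ (j + 1))⁻¹ = n * (n ^ j * c * (n ^ j)⁻¹) * n⁻¹ := by rw [pow_succ']; group
          _ = c ^ (r ^ (j + 1)) := by rw [ih, ← conj_zpow, ← hr, ← zpow_mul, pow_succ']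
    have hdvd : ((p ^ k : ℕ) : ℤ) ∣ r ^ p ^ k - 1 := by
      have h2 := dvd_sub_pow_of_dvd_sub (p := p) (a := r) (b := 1) hpr k
      rw [one_pow] at h2
      have h3 : (p : ℤ) ^ k ∣ (p : ℤ) ^ (k + 1) := pow_dvd_pow _ (Nat.le_succ k)
      push_cast
      exact h3.trans h2
    have hcC : n ^ p ^ k ∈ C := by
      rw [hC, mem_centralizer_iff]
      intro w hw
      obtain ⟨j, rfl⟩ := hmemc w hw
      have h2 : n ^ p ^ k * c * (n ^ p ^ k)⁻¹ = c := by
        rw [hpow]
        have h3 : c ^ (r ^ p ^ k - 1) = 1 := orderOf_dvd_iff_zpow_eq_one.1 (by rw [hk']; exact hdvd)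
        rw [zpow_sub_one, mul_inv_eq_one] at h3
        exact h3
      have h3 : Commute (n ^ p ^ k) c := mul_inv_eq_iff_eq_mul.1 h2
      exact (h3.zpow_right j).eq.symm
    -- `n ∈ C`
    let q : ↥N ⧸ C.subgroupOf N := QuotientGroup.mk ⟨n, hn⟩
    have hq1 : q ^ p ^ k = 1 := by
      show ((QuotientGroup.mk (⟨n, hn⟩ : ↥N) : ↥N ⧸ C.subgroupOf N)) ^ p ^ k = 1
      rw [← QuotientGroup.mk_pow, QuotientGroup.eq_one_iff, mem_subgroupOf]
      exact hcC
    have hq2 : q ^ (C.subgroupOf N).index = 1 := by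
      have : Nat.card (↥N ⧸ C.subgroupOf N) = (C.subgroupOf N).index := rfl
      rw [← this]
      exact pow_card_eq_one'
    have hcop : (p ^ k).Coprime (C.subgroupOf N).index :=
      Nat.Coprime.pow_left k ((Nat.Prime.coprime_iff_not_dvd hp.out).2 hidx)
    have hq : q = 1 := by
      have h2 := Nat.dvd_gcd (orderOf_dvd_of_pow_eq_one hq1) (orderOf_dvd_of_pow_eq_one hq2)
      rw [hcop] at h2
      exact orderOf_eq_one_iff.1 (Nat.dvd_one.1 h2)
    have h2 : (⟨n, hn⟩ : ↥N) ∈ C.subgroupOf N := (QuotientGroup.eq_one_iff _).1 hq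
    exact h2
  have hcard := SmallSimple.Burnside.card_eq_of_normalizer_le_centralizer hpd P hNC
  apply hna
  have : IsCyclic G := isCyclic_of_prime_card hcard
  have := IsCyclic.commutative (α := G)
  exact fun a b => this.is_comm.comm a b

/-- `⟨α⟩` contains no inner automorphism of odd prime order `p` if the Sylow `p`-subgroups are cyclic. -/
theorem inner_false [Finite G] {α : MulAut G} (h : Cfg α) {p : ℕ} [hp : Fact p.Prime] (P : Sylow p G)
    (hP : IsCyclic ↥(P : Subgroup G)) {y : G} (hy : orderOf y = p) (hyα : MulAut.conj y ∈ zpowers α) : False := by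
  have := h.sim
  obtain ⟨g, j, h1, h2⟩ := exists_conj_pow h.na P hP hy
  exact h2 (h.eq_zpow hyα h1)

/-- `2 ∣ |C_G(α)|` if some `1 ≠ y ∈ ⟨α⟩` has a nonsolvable centraliser. -/
theorem two_dvd_fix [Finite G] {α : MulAut G} (h : Cfg α) {y : MulAut G} (hy : y ∈ zpowers α) (hy1 : y ≠ 1)
    (hns : ¬ Group.IsSolvable ↥(fixA y)) : 2 ∣ Nat.card ↥(fixA α) := by
  have hM : ∀ m ∈ fixA y, α m ∈ fixA y := Cfg.fixA_inv (Cfg.comm_zpowers hy (mem_zpowers α))
  set M := fixA y with hMdef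
  let N : Subgroup ↥M := cG (resA α M hM)
  have hN : N.Normal := cG_normal _
  have hNs : Group.IsSolvable ↥N := by
    rw [← solvable_cM_iff α M hM]
    exact h.solv_fix hy hy1
  have hNmem : ∀ y : ↥M, y ∈ N ↔ (y : G) ∈ cM α M := by
    intro y
    rw [← map_cG_resA α M hM]
    constructor
    · intro hy
      exact ⟨y, hy, rfl⟩
    · rintro ⟨z, hz, e⟩
      have : z = y := Subtype.ext e
      rwa [← this]
  let C : Subgroup ↥M := (fixA α).subgroupOf M
  have hsur : Function.Surjective ((QuotientGroup.mk' N).comp C.subtype) := by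
    intro q
    obtain ⟨m, rfl⟩ := QuotientGroup.mk_surjective q
    obtain ⟨c, hcM, hc, hm⟩ := h.ccp.index_dvd hM m.1 m.2
    refine ⟨⟨⟨c, hcM⟩, hc⟩, ?_⟩
    show (QuotientGroup.mk (⟨c, hcM⟩ : ↥M) : ↥M ⧸ N) = QuotientGroup.mk m
    rw [QuotientGroup.eq, hNmem]
    exact hm
  by_contra hd
  have hcard : Odd (Nat.card (↥M ⧸ N)) := by
    rw [← Nat.not_even_iff_odd, even_iff_two_dvd]
    intro h2
    apply hd
    refine h2.trans ((card_dvd_of_surjective _ hsur).trans ?_)
    exact card_dvd_of_injective ((M.subtype.comp C.subtype).codRestrict (fixA α) fun y => y.2)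
      (fun a b hab => Subtype.ext (Subtype.ext (congrArg (fun z : ↥(fixA α) => (z : G)) hab)))
  have hq : Group.IsSolvable (↥M ⧸ N) := Agent.S0205.result hcard
  apply hns
  exact Group.isSolvable_of_ker_le_range N.subtype (QuotientGroup.mk' N)
    (by rw [QuotientGroup.ker_mk', range_subtype])

/-! ### Automorphisms of order `p` in a coset -/

/-- the arithmetic -/
theorem exists_solve {p : ℕ} (hp : p.Prime) (hp2 : p ≠ 2) {A : ℕ} {r n : ℤ} (h1 : (p : ℤ) ^ A ∣ r ^ p - 1)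
    (h2 : ¬ (p : ℤ) ^ A ∣ r - 1) (h3 : (p : ℤ) ^ A ∣ n * ∑ i ∈ Finset.range p, r ^ i) :
    ∃ k : ℤ, (p : ℤ) ^ A ∣ k * (1 - r) - n := by
  have hpz : Prime (p : ℤ) := Nat.prime_iff_prime_int.1 hp
  have hfact : Fact p.Prime := ⟨hp⟩
  obtain ⟨B, rfl⟩ : ∃ B, A = B + 1 := by
    rcases A with _ | B
    · exact absurd (by rw [pow_zero]; exact one_dvd _) h2
    · exact ⟨B, rfl⟩
  -- `p ∣ r - 1`
  have h4 : (p : ℤ) ∣ r - 1 := by
    have h5 : (p : ℤ) ∣ r ^ p - 1 := (dvd_pow_self _ (Nat.succ_ne_zero B)).trans h1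
    have h6 : (p : ℤ) ∣ r ^ p - r := by
      have h7 : ((r ^ p - r : ℤ) : ZMod p) = 0 := by
        push_cast
        rw [ZMod.pow_card, sub_self]
      exact (ZMod.intCast_zmod_eq_zero_iff_dvd _ _).1 h7
    have := dvd_sub h5 h6
    rwa [show r ^ p - 1 - (r ^ p - r) = r - 1 by ring] at this
  obtain ⟨b, hb⟩ := h4
  have hr : r = 1 + p * b := by linarith
  -- the sum
  obtain ⟨w, hw⟩ : (p : ℤ) ^ 2 ∣ ∑ i ∈ Finset.range p, r ^ i - p := by
    have hodd : Odd p := hp.odd_of_ne_two hp2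
    have h5 := odd_sq_dvd_geom_sum₂_sub (R := ℤ) (a := 1) (b := b) hodd
    simp only [one_pow, mul_one] at h5
    rw [hr]
    exact h5
  set T := ∑ i ∈ Finset.range p, r ^ i with hT
  have hsum : T = p * (1 + p * w) := by linear_combination hw
  have hu : ¬ (p : ℤ) ∣ 1 + p * w := by
    intro h5
    have h6 : (p : ℤ) ∣ 1 := by
      have := dvd_sub h5 (dvd_mul_right (p : ℤ) w)
      rwa [add_sub_cancel_right] at this
    exact hpz.not_unit (isUnit_of_dvd_one h6)
  have hcop : IsCoprime ((p : ℤ) ^ B) (1 + p * w) := by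
    apply IsCoprime.pow_left
    exact (Prime.coprime_iff_not_dvd hpz).2 hu
  have hp0 : (p : ℤ) ≠ 0 := hpz.ne_zero
  have h5 : (r - 1) * T = r ^ p - 1 := by
    rw [hT]
    exact mul_geom_sum r p
  have h6 : (p : ℤ) ^ B ∣ r - 1 := by
    rw [← h5, hsum, pow_succ] at h1
    have h7 : (p : ℤ) ^ B * p ∣ ((r - 1) * (1 + p * w)) * p := by
      refine h1.trans (dvd_of_eq ?_)
      ring
    exact hcop.dvd_of_dvd_mul_right (Int.dvd_of_mul_dvd_mul_right hp0 h7)
  have h7 : (p : ℤ) ^ B ∣ n := by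
    rw [hsum, pow_succ] at h3
    have h8 : (p : ℤ) ^ B * p ∣ (n * (1 + p * w)) * p := by
      refine h3.trans (dvd_of_eq ?_)
      ring
    exact hcop.dvd_of_dvd_mul_right (Int.dvd_of_mul_dvd_mul_right hp0 h8)
  obtain ⟨s, hs⟩ := h6
  obtain ⟨n', hn'⟩ := h7
  have hps : ¬ (p : ℤ) ∣ s := by
    intro h8
    apply h2
    rw [hs, pow_succ]
    exact mul_dvd_mul_left _ h8
  obtain ⟨x, y, hxy⟩ := (Prime.coprime_iff_not_dvd hpz).2 hps
  -- `x p + y s = 1`
  refine ⟨- n' * y, ?_⟩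
  refine ⟨-(x * n'), ?_⟩
  have h8 : 1 - r = - ((p : ℤ) ^ B * s) := by rw [← hs]; ring
  rw [h8, hn', pow_succ]
  linear_combination (p : ℤ) ^ B * n' * hxy

/-- `H¹` of a cyclic `p`-group -/
theorem exists_boundary {φ : MulAut G} {p : ℕ} [hp : Fact p.Prime] (hp2 : p ≠ 2) {P : Subgroup G}
    (hPc : IsCyclic ↥P) (hPp : IsPGroup p P) [Finite P] (hinv : ∀ m ∈ P, φ m ∈ P) (hφ : φ ^ p = 1)
    (hne : ¬ P ≤ fixA φ) {a : G} (ha : a ∈ P) (hn : ((List.range p).map fun i => (φ ^ i) a).prod = 1) :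
    ∃ v ∈ P, v * (φ v)⁻¹ = a := by
  obtain ⟨⟨c, hcP⟩, hc⟩ := hPc.exists_generator
  have hmemc : ∀ x ∈ P, ∃ i : ℤ, c ^ i = x := by
    intro x hx
    obtain ⟨i, hi⟩ := mem_zpowers_iff.1 (hc ⟨x, hx⟩)
    exact ⟨i, congrArg Subtype.val hi⟩
  obtain ⟨r, hr⟩ := hmemc _ (hinv c hcP)
  obtain ⟨n, hn'⟩ := hmemc a ha
  obtain ⟨A, hA⟩ := (IsPGroup.iff_orderOf.1 hPp) ⟨c, hcP⟩
  have hA' : orderOf c = p ^ A := by
    rw [← hA]
    exact orderOf_injective P.subtype (subtype_injective _) ⟨c, hcP⟩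
  have hpow : ∀ j : ℕ, (φ ^ j) c = c ^ (r ^ j) := by
    intro j
    induction j with
    | zero => simp
    | succ j ih =>
      rw [pow_succ', MulAut.mul_apply, ih, map_zpow, ← hr, ← zpow_mul, pow_succ']
  have hdv : ∀ z : ℤ, (p : ℤ) ^ A ∣ z ↔ c ^ z = 1 := by
    intro z
    rw [← orderOf_dvd_iff_zpow_eq_one, hA']
    push_cast
    exact Iff.rfl
  have h1 : (p : ℤ) ^ A ∣ r ^ p - 1 := by
    rw [hdv, zpow_sub_one, ← hpow, hφ]
    show c * c⁻¹ = 1
    rw [mul_inv_cancel]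
  have h2 : ¬ (p : ℤ) ^ A ∣ r - 1 := by
    rw [hdv, zpow_sub_one, hr, mul_inv_eq_one]
    intro h3
    apply hne
    intro x hx
    obtain ⟨i, rfl⟩ := hmemc x hx
    rw [mem_fixA, map_zpow, h3]
  have h3 : (p : ℤ) ^ A ∣ n * ∑ i ∈ Finset.range p, r ^ i := by
    rw [hdv]
    have h4 : ∀ N : ℕ, ((List.range N).map fun i => (φ ^ i) a).prod = c ^ (n * ∑ i ∈ Finset.range N, r ^ i) := by
      intro N
      induction N with
      | zero => simp
      | succ N ih =>
        rw [List.range_succ, List.map_append, List.prod_append, ih, Finset.sum_range_succ, mul_add, zpow_add]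
        simp only [List.map_cons, List.map_nil, List.prod_cons, List.prod_nil, mul_one]
        congr 1
        rw [← hn', map_zpow, hpow, ← zpow_mul, mul_comm]
    rw [← h4, hn]
  obtain ⟨k, hk⟩ := exists_solve hp.out hp2 h1 h2 h3
  refine ⟨c ^ k, zpow_mem hcP k, ?_⟩
  rw [map_zpow, ← hr, ← hn', ← zpow_mul, ← zpow_neg, ← zpow_add]
  rw [hdv] at hk
  have h4 : c ^ (k + -(r * k)) * (c ^ n)⁻¹ = 1 := by
    rw [← zpow_neg, ← zpow_add]
    convert hk using 2
    ring
  exact mul_inv_eq_one.1 h4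

theorem conj_mul_pow (φ : MulAut G) (a : G) (N : ℕ) :
    (MulAut.conj a * φ) ^ N = MulAut.conj ((List.range N).map fun i => (φ ^ i) a).prod * φ ^ N := by
  induction N with
  | zero => simp
  | succ N ih =>
    rw [pow_succ, ih, List.range_succ, List.map_append, List.prod_append, map_mul]
    simp only [List.map_cons, List.map_nil, List.prod_cons, List.prod_nil, mul_one]
    rw [← aut_conj (φ ^ N) a, pow_succ]
    group

theorem card_semi [Finite G] {φ : MulAut G} {p : ℕ} [hp : Fact p.Prime] (hφ : φ ^ p = 1)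
    (hz : center G = ⊥) (hout : φ ∉ (MulAut.conj : G →* MulAut G).range) (M : Subgroup G) (hM : ∀ m ∈ M, φ m ∈ M) :
    Nat.card ↥(semi φ M hM) = Nat.card M * p := by
  set I := (MulAut.conj : G →* MulAut G).range with hI
  have hIn : I.Normal := by
    constructor
    rintro _ ⟨g, rfl⟩ x
    exact ⟨x g, (aut_conj x g).symm⟩
  let f : ↥(semi φ M hM) →* MulAut G ⧸ I := (QuotientGroup.mk' I).comp (semi φ M hM).subtype
  let q : MulAut G ⧸ I := QuotientGroup.mk φ
  have hq : orderOf q = p := by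
    apply orderOf_eq_prime
    · show (QuotientGroup.mk φ : MulAut G ⧸ I) ^ p = 1
      rw [← QuotientGroup.mk_pow, hφ]
      rfl
    · intro h1
      exact hout ((QuotientGroup.eq_one_iff _).1 h1)
  have hfv : ∀ (m : G) (i : ℤ) (h : MulAut.conj m * φ ^ i ∈ semi φ M hM), f ⟨_, h⟩ = q ^ i := by
    intro m i h
    show (QuotientGroup.mk (MulAut.conj m * φ ^ i) : MulAut G ⧸ I) = (QuotientGroup.mk φ : MulAut G ⧸ I) ^ i
    rw [QuotientGroup.mk_mul, QuotientGroup.mk_zpow]
    have : (QuotientGroup.mk (MulAut.conj m) : MulAut G ⧸ I) = 1 := (QuotientGroup.eq_one_iff _).2 ⟨m, rfl⟩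
    rw [this, one_mul]
  have hrange : f.range = zpowers q := by
    ext x
    constructor
    · rintro ⟨⟨y, m, hm, i, rfl⟩, rfl⟩
      exact ⟨i, (hfv m i _).symm⟩
    · rintro ⟨i, rfl⟩
      refine ⟨⟨MulAut.conj 1 * φ ^ i, ⟨1, one_mem M, i, rfl⟩⟩, hfv _ _ _⟩
  -- the kernel
  let k : ↥M →* ↥f.ker :=
    { toFun := fun m => ⟨⟨MulAut.conj m.1, conj_mem_semi m.2⟩, by
        rw [MonoidHom.mem_ker]
        exact (QuotientGroup.eq_one_iff _).2 ⟨m.1, rfl⟩⟩
      map_one' := by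
        apply Subtype.ext
        apply Subtype.ext
        show MulAut.conj (1 : G) = 1
        rw [map_one]
      map_mul' := by
        intro a b
        apply Subtype.ext
        apply Subtype.ext
        show MulAut.conj (a.1 * b.1) = MulAut.conj a.1 * MulAut.conj b.1
        rw [map_mul] }
  have hk : Function.Bijective k := by
    constructor
    · intro a b hab
      apply Subtype.ext
      apply conj_inj hz
      exact congrArg (fun x : ↥f.ker => ((x : ↥(semi φ M hM)) : MulAut G)) hab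
    · rintro ⟨⟨y, m, hm, i, rfl⟩, hy⟩
      refine ⟨⟨m, hm⟩, ?_⟩
      apply Subtype.ext
      apply Subtype.ext
      show MulAut.conj m = MulAut.conj m * φ ^ i
      have hy' : q ^ i = 1 := (hfv m i ⟨m, hm, i, rfl⟩).symm.trans (MonoidHom.mem_ker.1 hy)
      have h1 : (orderOf q : ℤ) ∣ i := orderOf_dvd_iff_zpow_eq_one.2 hy'
      rw [hq] at h1
      obtain ⟨j, rfl⟩ := h1
      rw [zpow_mul, zpow_natCast, hφ, one_zpow, mul_one]
  rw [← f.ker.card_mul_index, index_ker, hrange, Nat.card_zpowers, hq, ← Nat.card_congr (Equiv.ofBijective k hk)]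

/-- **Two automorphisms of order `p` in the same coset of the inner automorphisms are conjugate** if the Sylow
`p`-subgroups are cyclic and not centralised by one of them. -/
theorem conj_of_coset [Finite G] {p : ℕ} [hp : Fact p.Prime] (hp2 : p ≠ 2) (hz : center G = ⊥)
    (hcyc : ∀ P : Sylow p G, IsCyclic ↥(P : Subgroup G)) {φ ψ : MulAut G} (hφ : φ ^ p = 1) (hψ : ψ ^ p = 1)
    (hout : φ ∉ (MulAut.conj : G →* MulAut G).range) {g : G} (hg : ψ = MulAut.conj g * φ)
    (hne : p ∣ Nat.card G → ∀ P : Sylow p G, ¬ (P : Subgroup G) ≤ fixA φ) :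
    ∃ w : G, ψ = MulAut.conj w * φ * (MulAut.conj w)⁻¹ := by
  classical
  -- an invariant Sylow subgroup
  have hφp : IsPGroup p (zpowers φ) := by
    have h1 : orderOf φ ∣ p ^ 1 := by rw [pow_one]; exact orderOf_dvd_of_pow_eq_one hφ
    obtain ⟨j, -, hj⟩ := (Nat.dvd_prime_pow hp.out).1 h1
    exact IsPGroup.of_card (n := j) (by rw [Nat.card_zpowers, hj])
  obtain ⟨P, hP⟩ := hφp.nonempty_fixed_point_of_prime_not_dvd_card (Sylow p G) (not_dvd_card_sylow p G)
  have hPφ : ∀ m ∈ (P : Subgroup G), φ m ∈ (P : Subgroup G) := by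
    intro m hm
    have h2 := hP ⟨φ, mem_zpowers φ⟩
    have h3 : φ m ∈ (((⟨φ, mem_zpowers φ⟩ : zpowers φ) • P : Sylow p G) : Subgroup G) :=
      Subgroup.smul_mem_pointwise_smul m φ (P : Subgroup G) hm
    rw [h2] at h3
    exact h3
  have hT : ∀ m ∈ (⊤ : Subgroup G), φ m ∈ (⊤ : Subgroup G) := fun _ _ => mem_top _
  set X := semi φ ⊤ hT with hX
  set S₀ := semi φ (P : Subgroup G) hPφ with hS₀
  have hle : S₀ ≤ X := by
    rintro _ ⟨m, -, i, rfl⟩
    exact ⟨m, mem_top _, i, rfl⟩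
  have hcX : Nat.card X = Nat.card G * p := by
    rw [hX, card_semi hφ hz hout, card_top]
  have hcS : Nat.card S₀ = Nat.card (P : Subgroup G) * p := card_semi hφ hz hout _ _
  have hSp : IsPGroup p (S₀.subgroupOf X) := by
    obtain ⟨k, hk⟩ := (IsPGroup.iff_card (p := p)).1 P.isPGroup'
    refine IsPGroup.of_card (n := k + 1) ?_
    rw [Nat.card_congr (subgroupOfEquivOfLe hle).toEquiv, hcS, hk, pow_succ]
  have hidx : ¬ p ∣ (S₀.subgroupOf X).index := by
    have h1 := (S₀.subgroupOf X).card_mul_index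
    rw [Nat.card_congr (subgroupOfEquivOfLe hle).toEquiv, hcS, hcX, ← (P : Subgroup G).card_mul_index] at h1
    have h2 : (S₀.subgroupOf X).index = (P : Subgroup G).index := by
      have h3 : 0 < Nat.card (P : Subgroup G) * p := Nat.mul_pos Nat.card_pos hp.out.pos
      apply Nat.eq_of_mul_eq_mul_left h3
      rw [h1]; ring
    rw [h2]
    exact P.not_dvd_index
  let S : Sylow p ↥X := hSp.toSylow hidx
  have hφX : φ ∈ X := ⟨1, mem_top _, 1, by simp⟩
  have hψX : ψ ∈ X := ⟨g, mem_top _, 1, by rw [hg, zpow_one]⟩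
  have h1 : IsPGroup p ↥(zpowers (⟨ψ, hψX⟩ : ↥X)) := by
    have h1 : orderOf (⟨ψ, hψX⟩ : ↥X) ∣ p ^ 1 := by
      rw [pow_one]; exact orderOf_dvd_of_pow_eq_one (Subtype.ext hψ)
    obtain ⟨j, -, hj⟩ := (Nat.dvd_prime_pow hp.out).1 h1
    exact IsPGroup.of_card (n := j) (by rw [Nat.card_zpowers, hj])
  obtain ⟨Q, hQ⟩ := h1.exists_le_sylow
  obtain ⟨s, hs⟩ := MulAction.exists_smul_eq ↥X Q S
  have hsy : s * ⟨ψ, hψX⟩ * s⁻¹ ∈ (S : Subgroup ↥X) := by
    have : MulAut.conj s ⟨ψ, hψX⟩ ∈ (s • Q : Sylow p ↥X) :=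
      Subgroup.smul_mem_pointwise_smul _ (MulAut.conj s) (Q : Subgroup ↥X) (hQ (mem_zpowers _))
    rw [hs] at this
    exact this
  have hsy' : (s : MulAut G) * ψ * (s : MulAut G)⁻¹ ∈ S₀ := hsy
  obtain ⟨m, -, i, hxm⟩ := s.2
  obtain ⟨a, ha, j, hj⟩ := hsy'
  set x : MulAut G := (s : MulAut G) with hxdef
  -- the power is `φ`
  have hcomm : φ ^ i * φ * (φ ^ i)⁻¹ = φ := by group
  have h2 : x * ψ * x⁻¹ = MulAut.conj (m * (φ ^ i : MulAut G) g * (φ m)⁻¹) * φ := by
    have h3 : φ ^ i * (MulAut.conj g * φ) * (φ ^ i)⁻¹ = MulAut.conj ((φ ^ i : MulAut G) g) * φ := by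
      rw [← aut_conj (φ ^ i) g]
      calc φ ^ i * (MulAut.conj g * φ) * (φ ^ i)⁻¹ = φ ^ i * MulAut.conj g * (φ ^ i)⁻¹ * (φ ^ i * φ * (φ ^ i)⁻¹) := by
            group
        _ = _ := by rw [hcomm]
    have h4 : φ * MulAut.conj m⁻¹ = MulAut.conj (φ m)⁻¹ * φ := by
      have h5 := aut_conj φ m⁻¹
      rw [mul_inv_eq_iff_eq_mul, map_inv φ] at h5
      exact h5
    rw [hxm, hg]
    calc MulAut.conj m * φ ^ i * (MulAut.conj g * φ) * (MulAut.conj m * φ ^ i)⁻¹
        = MulAut.conj m * (φ ^ i * (MulAut.conj g * φ) * (φ ^ i)⁻¹) * (MulAut.conj m)⁻¹ := by group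
      _ = MulAut.conj m * MulAut.conj ((φ ^ i : MulAut G) g) * (φ * MulAut.conj m⁻¹) := by
          rw [h3, map_inv]; group
      _ = _ := by rw [h4, map_mul, map_mul]; group
  have h3 : x * ψ * x⁻¹ = MulAut.conj a * φ := by
    rw [hj] at h2 ⊢
    congr 1
    have h4 : φ ^ (j - 1) ∈ (MulAut.conj : G →* MulAut G).range := by
      refine ⟨a⁻¹ * (m * (φ ^ i : MulAut G) g * (φ m)⁻¹), ?_⟩
      rw [map_mul, map_inv]
      have h5 : MulAut.conj (m * (φ ^ i : MulAut G) g * (φ m)⁻¹) = MulAut.conj a * φ ^ j * φ⁻¹ := by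
        rw [h2]; group
      rw [h5]
      group
    have h5 : (p : ℤ) ∣ j - 1 := by
      by_contra h6
      apply hout
      have hpz : Prime (p : ℤ) := Nat.prime_iff_prime_int.1 hp.out
      obtain ⟨u, v, huv⟩ := (Prime.coprime_iff_not_dvd hpz).2 h6
      have h7 : φ = (φ ^ (j - 1)) ^ v := by
        calc φ = φ ^ (u * (p : ℤ) + v * (j - 1)) := by rw [huv, zpow_one]
          _ = (φ ^ (j - 1)) ^ v := by
            rw [zpow_add, zpow_mul', zpow_natCast, hφ, one_zpow, one_mul, zpow_mul']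
      rw [h7]
      exact zpow_mem h4 v
    obtain ⟨t, ht⟩ := h5
    have : j = 1 + p * t := by linarith
    rw [this, zpow_add, zpow_one, zpow_mul, zpow_natCast, hφ, one_zpow, mul_one]
  have h4 : (MulAut.conj a * φ) ^ p = 1 := by
    rw [← h3, conj_pow, hψ, mul_one, mul_inv_cancel]
  rw [conj_mul_pow, hφ, mul_one] at h4
  have h5 : ((List.range p).map fun i => (φ ^ i) a).prod = 1 := by
    apply conj_inj hz
    rw [h4, map_one]
  -- conjugation in `P`
  have h6 : ∃ v ∈ (P : Subgroup G), v * (φ v)⁻¹ = a := by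
    by_cases hpG : p ∣ Nat.card G
    · exact exists_boundary hp2 (hcyc P) P.isPGroup' hPφ hφ (hne hpG P) ha h5
    · refine ⟨1, one_mem _, ?_⟩
      have h6 : (P : Subgroup G) = ⊥ := by
        obtain ⟨k, hk⟩ := (IsPGroup.iff_card (p := p)).1 P.isPGroup'
        rcases k with _ | k
        · exact card_eq_one.1 (by rw [hk, pow_zero])
        · exfalso
          apply hpG
          refine dvd_trans ?_ (card_subgroup_dvd_card (P : Subgroup G))
          rw [hk]
          exact dvd_pow_self p (Nat.succ_ne_zero k)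
      rw [h6, mem_bot] at ha
      rw [map_one, ha]
      group
  obtain ⟨v, -, hv⟩ := h6
  have h7 : MulAut.conj a * φ = MulAut.conj v * φ * (MulAut.conj v)⁻¹ := by
    rw [← hv, conj_mul_conj]
  refine ⟨(φ ^ (-i) : MulAut G) (m⁻¹ * v), ?_⟩
  have h8 : ψ = x⁻¹ * (MulAut.conj v * φ * (MulAut.conj v)⁻¹) * x := by
    rw [← h7, ← h3]; group
  rw [h8, hxm, ← aut_conj, map_mul, map_inv]
  have h9 : (φ ^ i)⁻¹ * φ * φ ^ i = φ := by group
  calc (MulAut.conj m * φ ^ i)⁻¹ * (MulAut.conj v * φ * (MulAut.conj v)⁻¹) * (MulAut.conj m * φ ^ i)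
      = (φ ^ i)⁻¹ * ((MulAut.conj m)⁻¹ * MulAut.conj v) * φ * ((MulAut.conj m)⁻¹ * MulAut.conj v)⁻¹ * φ ^ i := by group
    _ = (φ ^ i)⁻¹ * ((MulAut.conj m)⁻¹ * MulAut.conj v) * φ ^ i * ((φ ^ i)⁻¹ * φ * φ ^ i) * (φ ^ i)⁻¹ *
        ((MulAut.conj m)⁻¹ * MulAut.conj v)⁻¹ * φ ^ i := by group
    _ = _ := by rw [h9]; group

end Cfsg.Agent.H569.Ccp
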